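import Cfsg.Agent.Lib.CoreSolvable

/-! Assembly: one non-abelian chief factor over the solvable radical. -/

set_option autoImplicit false

namespace CfsgLib.CS

open Subgroup Cfsg

theorem asm {G : Type*} [Group G] [Finite G] (K : Subgroup G) [K.Normal]
    (hK : Group.IsSolvable K) (S : Subgroup (G ⧸ K)) [S.Normal] (hS : IsSimpleGroup S)
    (hns : ¬ Group.IsSolvable S) (hq : Group.IsSolvable ((G ⧸ K) ⧸ S)) :
    ∃ (K L : Subgroup G) (_ : K.Normal) (_ : L.Normal), K ≤ L ∧ Group.IsSolvable ↥K ∧
      Group.IsSolvable (G ⧸ L) ∧ IsSimpleGroup (↥L ⧸ K.subgroupOf L) ∧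
      ¬ IsMulCommutative (↥L ⧸ K.subgroupOf L) := by
  have hs := QuotientGroup.mk'_surjective K
  let L : Subgroup G := S.comap (QuotientGroup.mk' K)
  let f : L →* S := (QuotientGroup.mk' K).subgroupComap S
  have hf : Function.Surjective f := MonoidHom.subgroupComap_surjective_of_surjective _ _ hs
  have hker : K.subgroupOf L = f.ker := by
    ext x
    rw [mem_subgroupOf, MonoidHom.mem_ker, Subtype.ext_iff]
    exact (QuotientGroup.eq_one_iff _).symm
  let e : (L ⧸ K.subgroupOf L) ≃* S :=
    (QuotientGroup.quotientMulEquivOfEq hker).trans (QuotientGroup.quotientKerEquivOfSurjective f hf)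
  let g : G →* (G ⧸ K) ⧸ S := (QuotientGroup.mk' S).comp (QuotientGroup.mk' K)
  have hg : L = g.ker := by
    ext x
    rw [MonoidHom.mem_ker]
    exact (QuotientGroup.eq_one_iff (N := S) _).symm
  let e' : (G ⧸ L) ≃* (G ⧸ K) ⧸ S := (QuotientGroup.quotientMulEquivOfEq hg).trans
    (QuotientGroup.quotientKerEquivOfSurjective g ((QuotientGroup.mk'_surjective S).comp hs))
  refine ⟨K, L, inferInstance, inferInstance, fun x hx => ?_, hK,
    Group.isSolvable_of_isSolvable_injective (f := e'.toMonoidHom) e'.injective,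
    e.isSimpleGroup, fun hc => hns ?_⟩
  · change QuotientGroup.mk' K x ∈ S
    rw [show QuotientGroup.mk' K x = 1 from (QuotientGroup.eq_one_iff x).2 hx]
    exact one_mem _
  · refine Group.isSolvable_of_comm fun a b => ?_
    obtain ⟨a, rfl⟩ := e.surjective a
    obtain ⟨b, rfl⟩ := e.surjective b
    rw [← map_mul, ← map_mul, hc.is_comm.comm]

end CfsgLib.CS
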