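import Mathlib

/-!
# A coset of a subgroup that is transitive on the involutions
-/

set_option autoImplicit false

namespace CfsgLib.CS

universe u

variable {G : Type u} [Group G] [Finite G]

theorem uniq_fix (S : Subgroup G) [S.Normal]
    (hS : ∀ a b : G, orderOf a = 2 → orderOf b = 2 → ∃ g ∈ S, g * a * g⁻¹ = b) (y : G)
    (hy : ∀ s ∈ S, ∃ t, orderOf t = 2 ∧ Commute (y * s) t) :
    ∀ a b : G, orderOf a = 2 → orderOf b = 2 → Commute y a → Commute y b → a = b := by
  intro a b ha hb h1 h2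
  choose γ hγ1 hγ2 using fun t ht => hS a t ha ht
  let P := {p : S × G // orderOf p.2 = 2 ∧ Commute (y * p.1) p.2}
  let f : P → S := fun p => p.1.1
  let g : P → S := fun p => p.1.1 * ⟨γ p.1.2 p.2.1, hγ1 _ _⟩
  have hf : Function.Surjective f := fun s => by
    obtain ⟨t, h3, h4⟩ := hy s s.2
    exact ⟨⟨(s, t), h3, h4⟩, rfl⟩
  have key : ∀ p : P, p.1.2 = y * (g p : G) * a * (y * (g p : G))⁻¹ := by
    rintro ⟨⟨s, t⟩, h3, h4⟩
    have h5 := hγ2 t h3
    have h6 : y * s * t = t * (y * s) := h4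
    change t = y * (s * γ t h3) * a * (y * (s * γ t h3))⁻¹
    calc t = y * s * t * (y * s)⁻¹ := by rw [h6]; group
      _ = y * s * (γ t h3 * a * (γ t h3)⁻¹) * (y * s)⁻¹ := by rw [h5]
      _ = _ := by group
  have hg : Function.Injective g := by
    intro p q e
    have e1 : p.1.2 = q.1.2 := by rw [key p, key q, e]
    obtain ⟨⟨s, t⟩, h3, h4⟩ := p
    obtain ⟨⟨s', t'⟩, h3', h4'⟩ := q
    obtain rfl : t = t' := e1
    obtain rfl : s = s' := mul_right_cancel e
    rfl
  have hb' := hf.bijective_of_nat_card_le (Nat.card_le_card_of_injective g hg)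
  have := hb'.1 (a₁ := ⟨(1, a), ha, by simpa using h1⟩) (a₂ := ⟨(1, b), hb, by simpa using h2⟩) rfl
  exact congrArg (fun p : P => p.1.2) this

end CfsgLib.CS
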