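import Cfsg.Agent.Lib.CO.Red
import Cfsg.Agent.Lib.HallNumA

/-!
# Two distinct involutions in a Sylow `2`-subgroup
-/

set_option autoImplicit false

namespace CfsgLib.CS

open Subgroup
open scoped Pointwise

universe u

variable {G : Type u} [Group G] [Finite G]

/-- two distinct commuting involutions can be conjugated into a given Sylow `2`-subgroup -/
theorem two_invs_of_four (h : ∃ a b : G, orderOf a = 2 ∧ orderOf b = 2 ∧ a ≠ b ∧ b * a = a * b)
    (T : Sylow 2 G) :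
    ∃ a ∈ (T : Subgroup G), ∃ b ∈ (T : Subgroup G), orderOf a = 2 ∧ orderOf b = 2 ∧ a ≠ b := by
  obtain ⟨a, b, ha, hb, hab, hc⟩ := h
  have ha2 : a ^ 2 = 1 := ha ▸ pow_orderOf_eq_one a
  have hb2 : b ^ 2 = 1 := hb ▸ pow_orderOf_eq_one b
  have hE := PGrp.isElementaryAbelian_sup_zpowers (p := 2) ha2 hb2 hc.symm
  have hP : IsPGroup 2 (zpowers a ⊔ zpowers b : Subgroup G) := fun x =>
    ⟨1, Subtype.ext (by simpa using hE.2 x x.2)⟩
  obtain ⟨Q, hQ⟩ := hP.exists_le_sylow
  obtain ⟨g, rfl⟩ := MulAction.exists_smul_eq G Q T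
  have key : ∀ x ∈ (Q : Subgroup G), g * x * g⁻¹ ∈ ((g • Q : Sylow 2 G) : Subgroup G) :=
    fun x hx => by
      rw [Sylow.coe_subgroup_smul]
      exact smul_mem_pointwise_smul x (MulAut.conj g) _ hx
  refine ⟨_, key a (hQ (mem_sup_left (mem_zpowers a))), _,
    key b (hQ (mem_sup_right (mem_zpowers b))), ?_, ?_, fun e => hab (by simpa using e)⟩
  · rw [← ha]; exact ((MulAut.conj g).orderOf_eq a)
  · rw [← hb]; exact ((MulAut.conj g).orderOf_eq b)

theorem two_invs [IsSimpleGroup G] (hns : ¬ Group.IsSolvable G) (T : Sylow 2 G) :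
    ∃ a ∈ (T : Subgroup G), ∃ b ∈ (T : Subgroup G), orderOf a = 2 ∧ orderOf b = 2 ∧ a ≠ b :=
  two_invs_of_four (CO.exists_four_of_simple G fun h =>
    hns (IsSimpleGroup.comm_iff_isSolvable.1 h.1.1)) T

/-- the version for a simple subgroup and a Sylow `2`-subgroup of the ambient group -/
theorem two_invs_amb (S : Subgroup G) [IsSimpleGroup S] (hns : ¬ Group.IsSolvable S)
    (T : Sylow 2 G) :
    ∃ a ∈ (T : Subgroup G), ∃ b ∈ (T : Subgroup G), orderOf a = 2 ∧ orderOf b = 2 ∧ a ≠ b := by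
  obtain ⟨a, b, ha, hb, hab, hc⟩ := CO.exists_four_of_simple S fun h =>
    hns (IsSimpleGroup.comm_iff_isSolvable.1 h.1.1)
  refine two_invs_of_four ⟨(a : G), (b : G), ?_, ?_, fun e => hab (Subtype.ext e), ?_⟩ T
  · rw [← ha]; exact orderOf_coe a
  · rw [← hb]; exact orderOf_coe b
  · exact congrArg Subtype.val hc

end CfsgLib.CS
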