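import Mathlib

/-! Conjugacy of cyclic `2`-subgroups gives conjugacy of involutions in every quotient. -/

set_option autoImplicit false

namespace CfsgLib.CS

open Subgroup

universe u

variable {G : Type u} [Group G] [Finite G]

theorem quot_lift (N : Subgroup G) [N.Normal] {a : G ⧸ N} (ha : orderOf a = 2) :
    ∃ (x : G) (i : ℕ), (x : G ⧸ N) = a ∧ orderOf x = 2 ^ i := by
  obtain ⟨y, rfl⟩ := QuotientGroup.mk_surjective a
  obtain ⟨i, m, hm, e⟩ := Nat.exists_eq_two_pow_mul_odd (orderOf_pos y).ne'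
  have h0 : m ≠ 0 := fun h => by simp [h] at hm
  refine ⟨y ^ m, i, ?_, ?_⟩
  · obtain ⟨k, rfl⟩ := hm
    rw [QuotientGroup.mk_pow, pow_succ, pow_mul, ← ha, pow_orderOf_eq_one, one_pow, one_mul]
  · rw [orderOf_pow_of_dvd h0 (e ▸ dvd_mul_left m _), e, Nat.mul_div_cancel _ (Nat.pos_of_ne_zero h0)]

theorem quot_conj (hP : ∀ (p : ℕ), p.Prime → ∀ A B : Subgroup G, IsCyclic ↥A → IsCyclic ↥B →
      IsPGroup p ↥A → Nat.card ↥A = Nat.card ↥B →
      ∃ g : G, B = A.map (MulAut.conj g).toMonoidHom) (N : Subgroup G) [N.Normal] :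
    ∀ a b : G ⧸ N, orderOf a = 2 → orderOf b = 2 → ∃ g : G ⧸ N, g * a * g⁻¹ = b := by
  have key : ∀ (x y : G) (i j : ℕ), orderOf (x : G ⧸ N) = 2 → orderOf (y : G ⧸ N) = 2 →
      orderOf x = 2 ^ i → orderOf y = 2 ^ j → i ≤ j →
      ∃ g : G ⧸ N, g * (x : G ⧸ N) * g⁻¹ = y := fun x y i j ha hb hx hy hij => by
    obtain ⟨k, rfl⟩ := Nat.exists_eq_add_of_le hij
    have hz : orderOf (y ^ 2 ^ k) = 2 ^ i := by
      rw [orderOf_pow_of_dvd (by positivity) (hy ▸ pow_dvd_pow 2 (Nat.le_add_left k i)), hy,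
        pow_add, Nat.mul_div_cancel _ (by positivity)]
    obtain ⟨g, hg⟩ := hP 2 Nat.prime_two (zpowers x) (zpowers (y ^ 2 ^ k)) inferInstance
      inferInstance (IsPGroup.of_card (n := i) (by rw [Nat.card_zpowers, hx]))
      (by rw [Nat.card_zpowers, Nat.card_zpowers, hx, hz])
    have h1 : g * x * g⁻¹ ∈ zpowers y := by
      refine (zpowers_le.2 (pow_mem (mem_zpowers y) _) : zpowers (y ^ 2 ^ k) ≤ zpowers y) ?_
      rw [hg]
      exact mem_map_of_mem _ (mem_zpowers x)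
    obtain ⟨n, hn⟩ := mem_zpowers_iff.1 h1
    have h2 : (y : G ⧸ N) ^ n = g * (x : G ⧸ N) * (g : G ⧸ N)⁻¹ := by
      rw [← QuotientGroup.mk_zpow, hn, QuotientGroup.mk_mul, QuotientGroup.mk_mul,
        QuotientGroup.mk_inv]
    have h3 : (y : G ⧸ N) ^ (2 : ℤ) = 1 := by
      rw [zpow_ofNat, ← hb, pow_orderOf_eq_one]
    refine ⟨g, ?_⟩
    rw [← h2]
    rcases Int.even_or_odd' n with ⟨m, rfl | rfl⟩
    · rw [zpow_mul, h3, one_zpow, eq_comm, mul_inv_eq_one, mul_eq_left] at h2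
      rw [h2, orderOf_one] at ha
      exact absurd ha (by decide)
    · rw [zpow_add, zpow_mul, h3, one_zpow, one_mul, zpow_one]
  intro a b ha hb
  obtain ⟨x, i, rfl, hx⟩ := quot_lift N ha
  obtain ⟨y, j, rfl, hy⟩ := quot_lift N hb
  rcases le_total i j with h | h
  · exact key x y i j ha hb hx hy h
  · obtain ⟨g, hg⟩ := key y x j i hb ha hy hx h
    exact ⟨g⁻¹, by rw [← hg]; group⟩

end CfsgLib.CS
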