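import Cfsg.Agent.Lib.CO.Red

/-!
# One class of involutions and trivial solvable radical give a simple normal subgroup
-/

set_option autoImplicit false

namespace CfsgLib.CS

open Subgroup Cfsg
open scoped commutatorElement

universe u

variable {G : Type u} [Group G] [Finite G]

theorem exists_simple (h1 : ∀ a b : G, orderOf a = 2 → orderOf b = 2 → ∃ g : G, g * a * g⁻¹ = b)
    [Nontrivial G] (hR : ∀ N : Subgroup G, N.Normal → Group.IsSolvable N → N = ⊥) :
    ∃ S : Subgroup G, S.Normal ∧ IsSimpleGroup S ∧ ¬ Group.IsSolvable S := by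
  have hF : fittingSubgroup G = ⊥ := by
    haveI := fitting_isNilpotent (G := G)
    exact hR _ inferInstance inferInstance
  obtain ⟨K, hK, -⟩ := (exists_component_or_inf_fitting_ne_bot (C := (⊤ : Subgroup G))
    IsSubnormal.top top_ne_bot).resolve_right (by rw [hF]; simp)
  have hZ : center K = ⊥ := by
    have h2 := map_genFitting_le_of_isSubnormal hK.1
    have h3 : ((fittingSubgroup K).map K.subtype).IsSubnormal :=
      IsSubnormal.trans' (H := fittingSubgroup K) (Normal.isSubnormal inferInstance) hK.1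
    have h4 := le_fitting_of_isSubnormal h3 (isNilpotent_map fitting_isNilpotent _)
    rw [hF, le_bot_iff, map_eq_bot_iff_of_injective _ K.subtype_injective] at h4
    exact le_bot_iff.1 (h4 ▸ center_le_fitting)
  have hs : IsSimpleGroup K := isSimpleGroup_of_isQuasisimple hK.2 hZ
  have hns := isComponent_not_isSolvable hK
  have hz : ∀ x ∈ K, (∀ y ∈ K, y * x = x * y) → x = 1 := fun x hx h => by
    have : (⟨x, hx⟩ : K) ∈ center K := mem_center_iff.2 fun y => Subtype.ext (h y y.2)
    rw [hZ, mem_bot] at this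
    exact congrArg Subtype.val this
  have hc : ∀ g : G, (∀ x ∈ K, g * x * g⁻¹ ∈ K) ∨ ∀ x ∈ K, ∀ y ∈ K, y * (g * x * g⁻¹) = (g * x * g⁻¹) * y := fun g => by
    rcases isComponent_eq_or_commutator_eq_bot hK (isComponent_map_conj hK g) with e | e
    · exact Or.inl fun x hx => e ▸ (show g * x * g⁻¹ ∈ K.map (MulAut.conj g).toMonoidHom from ⟨x, hx, rfl⟩)
    · refine Or.inr fun x hx y hy => ?_
      rw [commutator_eq_bot_iff_le_centralizer] at e
      exact (e hy _ ⟨x, hx, rfl⟩).symm
  refine ⟨K, ⟨fun x hx g => ?_⟩, hs, hns⟩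
  rcases hc g with e | e
  · exact e x hx
  exfalso
  obtain ⟨t, ht⟩ := CO.exists_inv_of_simple K fun h => hns (IsSimpleGroup.comm_iff_isSolvable.1 h.1.1)
  have ht' : orderOf (t : G) = 2 := by rw [← ht]; exact orderOf_coe t
  have t1 : (t : G) ≠ 1 := fun h => by rw [h, orderOf_one] at ht'; omega
  have tt : (t : G) * t = 1 := by rw [← sq, ← ht']; exact pow_orderOf_eq_one _
  have s1 : g * t * g⁻¹ ∉ K := fun h => t1 (by simpa using hz _ h (e t t.2))
  have ho : orderOf ((t : G) * (g * t * g⁻¹)) = 2 := by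
    refine orderOf_eq_prime ?_ fun h => s1 ?_
    · have h2 := e t t.2 t t.2
      calc ((t : G) * (g * t * g⁻¹)) ^ 2 = t * ((g * t * g⁻¹) * t) * (g * t * g⁻¹) := by
            rw [sq]; group
        _ = (t * t) * (g * (t * t) * g⁻¹) := by rw [← h2]; group
        _ = 1 := by rw [tt]; group
    · rw [eq_inv_of_mul_eq_one_right h]
      exact K.inv_mem t.2
  obtain ⟨h, hh⟩ := h1 t _ ht' ho
  rcases hc h with f | f
  · have := f t t.2
    rw [hh] at this
    exact s1 ((K.mul_mem_cancel_left t.2).1 this)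
  · refine t1 (hz t t.2 fun y hy => ?_)
    have h3 := f t t.2 y hy
    have h4 := e t t.2 y hy
    rw [hh] at h3
    generalize g * (t : G) * g⁻¹ = s at h3 h4
    rw [← mul_assoc, mul_assoc (t : G), ← h4, ← mul_assoc] at h3
    exact mul_right_cancel h3

end CfsgLib.CS
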