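import Mathlib
import Cfsg.Agent.Lib.PGroupRankOne

/-! A normal subgroup of a 2-group with all involutions and the one-fixed-involution property. -/

set_option autoImplicit false

universe u

namespace CfsgLib.CS

open Subgroup

theorem two_cyc_inv {H : Type*} [Group H] [Finite H] [IsCyclic H] {a b : H}
    (ha : orderOf a = 2) (hb : orderOf b = 2) : a = b := by
  classical
  by_contra hab
  have := Fintype.ofFinite H
  have h1 := IsCyclic.card_pow_eq_one_le (α := H) (n := 2) two_pos
  have ha1 : a ≠ 1 := fun e => by simp [e] at ha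
  have hb1 : b ≠ 1 := fun e => by simp [e] at hb
  have hsub : ({1, a, b} : Finset H) ⊆ Finset.univ.filter (fun x : H => x ^ 2 = 1) := by
    intro x hx
    simp only [Finset.mem_insert, Finset.mem_singleton] at hx
    rcases hx with rfl | rfl | rfl
    · simp
    · simpa [ha] using pow_orderOf_eq_one x
    · simpa [hb] using pow_orderOf_eq_one x
  have h3 : ({1, a, b} : Finset H).card = 3 :=
    Finset.card_eq_three.2 ⟨1, a, b, ha1.symm, hb1.symm, hab, rfl⟩
  have := Finset.card_le_card hsub
  omega

theorem two_zpowers_inv {G : Type*} [Group G] [Finite G] {x a b : G}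
    (ha : orderOf a = 2) (hb : orderOf b = 2) (hax : a ∈ zpowers x) (hbx : b ∈ zpowers x) :
    a = b := by
  have h := two_cyc_inv (H := zpowers x) (a := ⟨a, hax⟩) (b := ⟨b, hbx⟩)
    (by rw [Subgroup.orderOf_mk, ha]) (by rw [Subgroup.orderOf_mk, hb])
  exact congrArg Subtype.val h

theorem two_exists_pow {G : Type*} [Group G] (hQ : IsPGroup 2 G) (T : Subgroup G) (c : G)
    (hc : c ∉ T) : ∃ k : ℕ, c ^ k ∉ T ∧ c ^ k * c ^ k ∈ T := by
  obtain ⟨n, hn⟩ := hQ c
  by_contra hne
  push Not at hne
  have : ∀ m : ℕ, c ^ 2 ^ m ∉ T := by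
    intro m
    induction m with
    | zero => simpa using hc
    | succ m ih =>
      have := hne _ ih
      rwa [← pow_add, ← mul_two, ← pow_succ] at this
  exact this n (hn ▸ one_mem T)

theorem two_index {G : Type u} [Group G] [Finite G] (hQ : IsPGroup 2 G) (T : Subgroup G)
    [T.Normal] (hi : ∀ t : G, orderOf t = 2 → t ∈ T)
    (hw : ∀ w : G, w ∉ T → w * w ∈ T → ∀ a b : G, orderOf a = 2 → orderOf b = 2 →
      Commute w a → Commute w b → a = b)
    (h2 : ∃ a b : G, orderOf a = 2 ∧ orderOf b = 2 ∧ a ≠ b) : T.index ≤ 2 := by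
  have hT : T.Normal := inferInstance
  obtain ⟨a, b, ha, hb, hab⟩ := h2
  refine Nat.le_of_dvd two_pos (Subgroup.index_dvd_two_iff.2 ?_)
  rcases PGrp.isCyclic_or_isDQSD_or_exists_normal_card_sq hQ with h | ⟨-, n, x, y, h⟩ |
    ⟨E, hEn, hE, hEc⟩
  · exact absurd (two_cyc_inv ha hb) hab
  · have hz := (PGrp.IsDQSDPair.pow_mem_center h).1
    obtain ⟨hn, hc, hx, hy, h⟩ := h
    have hidx : (zpowers x).index = 2 := by
      have h1 := (zpowers x).card_mul_index
      rw [Nat.card_zpowers, hx, hc, pow_succ] at h1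
      exact Nat.eq_of_mul_eq_mul_left (by positivity) h1
    obtain ⟨t, ht, htx⟩ : ∃ t : G, orderOf t = 2 ∧ t ∉ zpowers x := by
      by_contra hne
      push Not at hne
      exact hab (two_zpowers_inv ha hb (hne a ha) (hne b hb))
    have htT := hi t ht
    have hty : t * y⁻¹ ∈ zpowers x := by
      rw [mul_mem_iff_of_index_two hidx, inv_mem_iff]
      exact iff_of_false htx hy
    obtain ⟨k, hk⟩ := mem_zpowers_iff.1 hty
    have hk' : t = x ^ k * y := by rw [hk]; group
    have hcomm : t * x * t⁻¹ * x⁻¹ ∈ T := by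
      have := T.mul_mem htT (hT.conj_mem _ (T.inv_mem htT) x)
      simpa [mul_assoc] using this
    have hx2 : x ^ (2 : ℤ) ∈ T := by
      have key : ∀ r : ℤ, y * x * y⁻¹ = x ^ r → x ^ (r - 1) ∈ T := by
        intro r hr
        have e : t * x * t⁻¹ * x⁻¹ = x ^ (r - 1) := by
          calc t * x * t⁻¹ * x⁻¹ = x ^ k * (y * x * y⁻¹) * x ^ (-k) * x⁻¹ := by
                rw [hk']; group
            _ = x ^ (r - 1) := by rw [hr]; group
        exact e ▸ hcomm
      rcases h with ⟨h, -⟩ | ⟨h, -⟩ | ⟨-, h, -⟩
      · have := T.inv_mem (key (-1) (by simpa using h))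
        rwa [← zpow_neg] at this
      · have := T.inv_mem (key (-1) (by simpa using h))
        rwa [← zpow_neg] at this
      · rw [← zpow_natCast, Nat.cast_sub Nat.one_le_two_pow] at h
        have h1 := T.mul_mem (hi _ hz) (T.inv_mem (key _ h))
        rw [← zpow_natCast, ← zpow_neg, ← zpow_add] at h1
        convert h1 using 2
        push_cast
        ring
    have hev : ∀ j : ℤ, x ^ j * x ∈ T ∨ x ^ j ∈ T := by
      intro j
      rcases Int.even_or_odd' j with ⟨m, rfl | rfl⟩
      · right
        rw [zpow_mul]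
        exact T.zpow_mem hx2 m
      · left
        have := T.zpow_mem hx2 (m + 1)
        rw [← zpow_mul] at this
        convert this using 1
        group
    refine ⟨x, fun g => ?_⟩
    by_cases hg : g ∈ zpowers x
    · obtain ⟨j, rfl⟩ := mem_zpowers_iff.1 hg
      exact hev j
    · have hgt : g * t⁻¹ ∈ zpowers x := by
        rw [mul_mem_iff_of_index_two hidx, inv_mem_iff]
        exact iff_of_false hg htx
      obtain ⟨j, hj⟩ := mem_zpowers_iff.1 hgt
      have hj' : g = x ^ j * t := by rw [hj]; group
      rcases hev j with h1 | h1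
      · left
        have := T.mul_mem h1 (hT.conj_mem _ htT x⁻¹)
        convert this using 1
        rw [hj']; group
      · right
        rw [hj']
        exact T.mul_mem h1 htT
  · have hEnt : E ≠ ⊥ := by
      rintro rfl
      simp at hEc
    obtain ⟨z, hzE, hz1, hzc⟩ : ∃ z ∈ E, z ≠ 1 ∧ z ∈ center G := by
      have : Fact (Nat.Prime 2) := ⟨Nat.prime_two⟩
      have := hQ.isNilpotent
      obtain ⟨⟨z, hz⟩, hz1⟩ := Subgroup.ne_bot_iff_exists_ne_one.1
        (PGrp.inf_center_ne_bot_of_normal E hEnt)
      exact ⟨z, hz.1, fun e => hz1 (Subtype.ext e), hz.2⟩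
    have hz2 : z ^ 2 = 1 := hE.2 z hzE
    have hcard : ∀ s : Finset G, (∀ g ∈ s, g ∈ E) → s.card ≤ 4 := by
      intro s hs
      have h1 : (s : Set G).ncard ≤ (E : Set G).ncard := Set.ncard_le_ncard hs
      rw [Set.ncard_coe_finset] at h1
      have h3 : (E : Set G).ncard = 4 := by
        rw [← Nat.card_coe_set_eq]; exact hEc
      omega
    obtain ⟨c, hcE, hc1, hcz⟩ : ∃ c ∈ E, c ≠ 1 ∧ c ≠ z := by
      by_contra hne
      push Not at hne
      have h1 : (E : Set G) ⊆ {1, z} := by
        intro g hg
        by_cases h : g = 1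
        · exact Or.inl h
        · exact Or.inr (hne g hg h)
      have h3 : (E : Set G).ncard = 4 := by
        rw [← Nat.card_coe_set_eq]; exact hEc
      have h4 := Set.ncard_le_ncard h1
      rw [Set.ncard_pair hz1.symm] at h4
      omega
    have hc2 : c ^ 2 = 1 := hE.2 c hcE
    have hconj : ∀ g : G, g * c * g⁻¹ = c ∨ g * c * g⁻¹ = c * z := by
      classical
      intro g
      by_contra hne
      push Not at hne
      have hzz : ∀ g : G, g * z = z * g := fun g => mem_center_iff.1 hzc g
      have e1 : g * c * g⁻¹ ≠ 1 := fun e => hc1 (by simpa using e)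
      have e2 : g * c * g⁻¹ ≠ z := fun e => hcz (by
        have : c = g⁻¹ * z * g := by rw [← e]; group
        rw [this, hzz]; group)
      have e3 : c * z ≠ 1 := fun e => hcz (by
        have : c = z⁻¹ := eq_inv_of_mul_eq_one_left e
        rw [this]; exact inv_eq_of_mul_eq_one_right (by rw [← sq, hz2]))
      have e4 : c * z ≠ z := fun e => hc1 (by simpa using e)
      have e5 : c * z ≠ c := fun e => hz1 (by simpa using e)
      have h5 := hcard {g * c * g⁻¹, c * z, 1, z, c} (by
        intro s hs
        simp only [Finset.mem_insert, Finset.mem_singleton] at hs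
        rcases hs with rfl | rfl | rfl | rfl | rfl
        exacts [hEn.conj_mem _ hcE g, E.mul_mem hcE hzE, E.one_mem, hzE, hcE])
      rw [Finset.card_insert_of_notMem (by simp [e1, e2, hne.1, hne.2]),
        Finset.card_insert_of_notMem (by simp [e3, e4, e5]),
        Finset.card_eq_three.2 ⟨1, z, c, hz1.symm, hc1.symm, hcz.symm, rfl⟩] at h5
      omega
    have hCT : ∀ g : G, g * c * g⁻¹ = c → g ∈ T := by
      intro g hg
      by_contra hgT
      obtain ⟨k, hk1, hk2⟩ := two_exists_pow hQ T g hgT
      have hgc : Commute g c := by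
        have : g * c = c * g := by rw [← mul_inv_eq_iff_eq_mul]; exact hg
        exact this
      have hgz : Commute (g ^ k) z := mem_center_iff.1 hzc _
      exact hcz (hw _ hk1 hk2 c z (orderOf_eq_prime hc2 hc1) (orderOf_eq_prime hz2 hz1)
        (hgc.pow_left k) hgz)
    by_cases hall : ∀ g : G, g * c * g⁻¹ = c
    · exact ⟨1, fun g => Or.inr (hCT g (hall g))⟩
    · push Not at hall
      obtain ⟨y, hy⟩ := hall
      have hy' := (hconj y).resolve_left hy
      refine ⟨y, fun g => ?_⟩
      rcases hconj g with h | h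
      · exact Or.inr (hCT g h)
      · left
        apply hCT
        have hzz : g * z = z * g := mem_center_iff.1 hzc g
        calc g * y * c * (g * y)⁻¹ = g * (y * c * y⁻¹) * g⁻¹ := by group
          _ = g * c * g⁻¹ * (g * z * g⁻¹) := by rw [hy']; group
          _ = c * z ^ 2 := by rw [h, hzz, sq]; simp only [mul_assoc, mul_inv_cancel, mul_one]
          _ = c := by rw [hz2, mul_one]

end CfsgLib.CS
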